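import Mathlib.RepresentationTheory.Invariants
import Mathlib.GroupTheory.Index
import Mathlib.LinearAlgebra.Span.Basic
import Mathlib.Algebra.CharP.Defs

/-!
Averaging over a normal subgroup with invertible order, and vectors whose orbit sizes are coprime.
-/

set_option autoImplicit false

namespace CfsgLib.NormalComplements.CoprimeOrbits

variable {k V H : Type*} [Field k] [AddCommGroup V] [Module k V] [Group H]

/-- the stabiliser of a vector -/
def repStab (ρ : Representation k H V) (v : V) : Subgroup H where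
  carrier := {h | ρ h v = v}
  one_mem' := by simp
  mul_mem' := by
    intro a b ha hb
    simp only [Set.mem_setOf_eq] at *
    rw [map_mul, Module.End.mul_apply, hb, ha]
  inv_mem' := by
    intro a ha
    simp only [Set.mem_setOf_eq] at *
    nth_rw 1 [← ha]
    rw [← Module.End.mul_apply, ← map_mul, inv_mul_cancel, map_one, Module.End.one_apply]

@[simp] theorem mem_repStab {ρ : Representation k H V} {v : V} {h : H} :
    h ∈ repStab ρ v ↔ ρ h v = v := Iff.rfl

theorem rho_mul_apply (ρ : Representation k H V) (a b : H) (v : V) :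
    ρ (a * b) v = ρ a (ρ b v) := by rw [map_mul]; rfl

theorem card_repOrbit [Finite H] (ρ : Representation k H V) (v : V) :
    Nat.card {u : V | ∃ h : H, ρ h v = u} = (repStab ρ v).index := by
  refine (Nat.card_congr (Equiv.ofBijective
    (fun q : H ⧸ repStab ρ v => Quotient.liftOn' q
      (fun h => (⟨ρ h v, h, rfl⟩ : {u : V | ∃ h : H, ρ h v = u})) ?_) ⟨?_, ?_⟩)).symm
  · intro a b hab
    rw [QuotientGroup.leftRel_apply, mem_repStab] at hab
    apply Subtype.ext
    show ρ a v = ρ b v
    conv_lhs => rw [← hab]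
    rw [← rho_mul_apply]; simp
  · intro p q
    induction p using QuotientGroup.induction_on with | H a => ?_
    induction q using QuotientGroup.induction_on with | H b => ?_
    intro hab
    have hab' : ρ a v = ρ b v := congrArg Subtype.val hab
    rw [QuotientGroup.eq, mem_repStab, rho_mul_apply, ← hab', ← rho_mul_apply]
    simp
  · rintro ⟨u, h, rfl⟩
    exact ⟨(h : H ⧸ repStab ρ v), rfl⟩

/-- If `A` and `B` have coprime indices then `H = B A`. -/
theorem exists_mul_of_coprime_index [Finite H] (A B : Subgroup H)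
    (hcop : A.index.Coprime B.index) (h : H) : ∃ b ∈ B, b⁻¹ * h ∈ A := by
  classical
  haveI := Fintype.ofFinite (H ⧸ A)
  have h1 : A.relIndex B * B.index = (A ⊓ B).index := by
    rw [← Subgroup.inf_relIndex_right A B, Subgroup.relIndex_mul_index inf_le_right]
  have h2 : A.index ∣ A.relIndex B :=
    hcop.dvd_of_dvd_mul_right (h1 ▸ Subgroup.index_dvd_of_le inf_le_left)
  let f : B ⧸ A.subgroupOf B → H ⧸ A := fun q => Quotient.liftOn' q (fun b => ((b : H) : H ⧸ A))
    fun a b hab => by
      rw [QuotientGroup.leftRel_apply, Subgroup.mem_subgroupOf] at hab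
      exact QuotientGroup.eq.mpr (by simpa using hab)
  have hf : Function.Injective f := by
    intro p q
    induction p using QuotientGroup.induction_on with | H a => ?_
    induction q using QuotientGroup.induction_on with | H b => ?_
    intro hab
    rw [QuotientGroup.eq, Subgroup.mem_subgroupOf]
    simpa using QuotientGroup.eq.mp (show ((a : H) : H ⧸ A) = (b : H) from hab)
  have hbij := hf.bijective_of_nat_card_le (Nat.le_of_dvd (Nat.card_pos (α := B ⧸ A.subgroupOf B)) h2)
  obtain ⟨q, hq⟩ := hbij.2 (h : H ⧸ A)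
  induction q using QuotientGroup.induction_on with | H b => ?_
  exact ⟨b, b.2, QuotientGroup.eq.mp (show ((b : H) : H ⧸ A) = (h : H) from hq)⟩

/-- `A N`-index: if `N` is normal then `|N : N ∩ B|` divides `|H : B|`. -/
theorem relIndex_dvd_index_normal [Finite H] (N B : Subgroup H) [N.Normal] : B.relIndex N ∣ B.index := by
  have h1 : B.relIndex (B ⊔ N) = B.relIndex N := by
    rw [← Subgroup.inf_relIndex_right B N]
    have a := Subgroup.relIndex_mul_relIndex (B ⊓ N) B (B ⊔ N) inf_le_left le_sup_left
    have b := Subgroup.relIndex_mul_relIndex (B ⊓ N) N (B ⊔ N) inf_le_right le_sup_right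
    rw [Subgroup.inf_relIndex_left, ← b] at a
    rw [Subgroup.inf_relIndex_right, Subgroup.relIndex_sup_right] at a
    rw [Subgroup.inf_relIndex_right]
    have h0 : 0 < N.relIndex B := Nat.pos_of_ne_zero Subgroup.index_ne_zero_of_finite
    exact Nat.eq_of_mul_eq_mul_left h0 (a.trans (mul_comm _ _))
  exact h1 ▸ Subgroup.relIndex_dvd_index_of_le le_sup_left

open scoped Classical in
/-- average over a subgroup -/
noncomputable def avg [Finite H] (ρ : Representation k H V) (N : Subgroup H) : V →ₗ[k] V :=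
  letI := Fintype.ofFinite N
  (Nat.card N : k)⁻¹ • ∑ n : N, ρ (n : H)

variable [Finite H]

theorem avg_apply (ρ : Representation k H V) (N : Subgroup H) [Fintype N] (v : V) :
    avg ρ N v = (Nat.card N : k)⁻¹ • ∑ n : N, ρ (n : H) v := by
  simp only [avg, LinearMap.smul_apply, LinearMap.coe_sum, Finset.sum_apply]
  congr 1
  exact Finset.sum_congr (by ext; simp) fun _ _ => rfl

theorem avg_of_fixed (ρ : Representation k H V) (N : Subgroup H) (hN : (Nat.card N : k) ≠ 0)
    {v : V} (hv : ∀ n ∈ N, ρ n v = v) : avg ρ N v = v := by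
  classical
  cases nonempty_fintype N
  rw [avg_apply, Finset.sum_congr rfl fun (n : N) _ => hv n n.2, Finset.sum_const, Finset.card_univ,
    ← Nat.card_eq_fintype_card, ← Nat.cast_smul_eq_nsmul k, smul_smul, inv_mul_cancel₀ hN, one_smul]

theorem avg_translate_right (ρ : Representation k H V) (N : Subgroup H) {m : H} (hm : m ∈ N) (v : V) :
    avg ρ N (ρ m v) = avg ρ N v := by
  classical
  cases nonempty_fintype N
  rw [avg_apply, avg_apply]
  congr 1
  exact Fintype.sum_equiv (Equiv.mulRight (⟨m, hm⟩ : N)) _ _ fun n => (rho_mul_apply ρ _ _ _).symm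

theorem avg_mem_fixed (ρ : Representation k H V) (N : Subgroup H) {m : H} (hm : m ∈ N) (v : V) :
    ρ m (avg ρ N v) = avg ρ N v := by
  classical
  cases nonempty_fintype N
  rw [avg_apply, map_smul, map_sum]
  congr 1
  exact Fintype.sum_equiv (Equiv.mulLeft (⟨m, hm⟩ : N)) _ _ fun n => (rho_mul_apply ρ _ _ _).symm

theorem avg_comm (ρ : Representation k H V) (N : Subgroup H) [N.Normal] (h : H) (v : V) :
    avg ρ N (ρ h v) = ρ h (avg ρ N v) := by
  classical
  cases nonempty_fintype N
  rw [avg_apply, avg_apply, map_smul, map_sum]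
  congr 1
  refine Fintype.sum_equiv (MulAut.conjNormal h⁻¹).toEquiv _ _ fun n => ?_
  rw [← rho_mul_apply, ← rho_mul_apply]
  congr 2
  simp [MulAut.conjNormal_apply, mul_assoc]

/-- If `B ≤ N` moves `v` to every element of its `N`-orbit, the two averages agree on `v`. -/
theorem avg_eq_avg (ρ : Representation k H V) (B N : Subgroup H) (hB : B ≤ N)
    (hBk : (Nat.card B : k) ≠ 0) (hNk : (Nat.card N : k) ≠ 0) {v : V}
    (htr : ∀ n ∈ N, ∃ b ∈ B, ρ n v = ρ b v) : avg ρ B v = avg ρ N v := by
  classical
  cases nonempty_fintype N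
  have h1 : avg ρ B (avg ρ N v) = avg ρ N v :=
    avg_of_fixed ρ B hBk fun n hn => avg_mem_fixed ρ N (hB hn) v
  rw [← h1, avg_apply ρ N v, map_smul, map_sum]
  rw [Finset.sum_congr rfl fun (n : N) _ => (show avg ρ B (ρ (n : H) v) = avg ρ B v by
    obtain ⟨b, hb, e⟩ := htr n n.2
    rw [e, avg_translate_right ρ B hb])]
  rw [Finset.sum_const, Finset.card_univ, ← Nat.card_eq_fintype_card, ← Nat.cast_smul_eq_nsmul k,
    smul_smul, inv_mul_cancel₀ hNk, one_smul]

theorem natCard_cast_ne_zero_of_dvd {m n : ℕ} (hmn : m ∣ n) (hn : (n : k) ≠ 0) : (m : k) ≠ 0 := by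
  obtain ⟨c, rfl⟩ := hmn
  rw [Nat.cast_mul] at hn
  exact left_ne_zero_of_mul hn

/-- Let `N` be normal with invertible order, let the orbit of `a` span. A vector whose orbit size
is coprime to that of `a` is fixed by `N`. -/
theorem fixed_of_coprime_orbit (ρ : Representation k H V) (N : Subgroup H) [N.Normal]
    (hN : (Nat.card N : k) ≠ 0) (a : V)
    (hspan : Submodule.span k {u : V | ∃ h : H, ρ h a = u} = ⊤) (b : V)
    (hcop : (repStab ρ a).index.Coprime (repStab ρ b).index) :
    avg ρ N b = b ∧ ∀ n ∈ N, ρ n b = b := by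
  set B := repStab ρ b with hB
  have hNB : (Nat.card (N ⊓ B : Subgroup H) : k) ≠ 0 :=
    natCard_cast_ne_zero_of_dvd (Subgroup.card_dvd_of_le inf_le_left) hN
  have hall : ∀ v : V, (∀ v', (∃ h : H, ρ h a = v') → avg ρ (N ⊓ B) v' = avg ρ N v') →
      avg ρ (N ⊓ B) v = avg ρ N v := by
    intro v hv
    have hle : Submodule.span k {u : V | ∃ h : H, ρ h a = u} ≤
        LinearMap.eqLocus (avg ρ (N ⊓ B)) (avg ρ N) := Submodule.span_le.mpr fun u hu => hv u hu
    exact hle (hspan ▸ Submodule.mem_top)
  have key : avg ρ (N ⊓ B) b = avg ρ N b := by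
    refine hall b ?_
    rintro v' ⟨h, rfl⟩
    obtain ⟨β, hβ, hβh⟩ := exists_mul_of_coprime_index _ _ hcop h
    have he : ρ h a = ρ β a := by
      conv_rhs => rw [← mem_repStab.mp hβh]
      rw [← rho_mul_apply]; simp
    rw [he]
    refine avg_eq_avg ρ (N ⊓ B) N inf_le_left hNB hN fun n hn => ?_
    set A' := repStab ρ (ρ β a) with hA'
    have hA'i : A'.index = (repStab ρ a).index := by
      rw [← card_repOrbit, ← card_repOrbit]
      congr 2
      ext u
      constructor
      · rintro ⟨x, rfl⟩; exact ⟨x * β, rho_mul_apply ρ x β a⟩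
      · rintro ⟨x, rfl⟩; exact ⟨x * β⁻¹, by rw [← rho_mul_apply]; simp⟩
    have hc : (A'.subgroupOf N).index.Coprime (B.subgroupOf N).index := by
      refine Nat.Coprime.coprime_dvd_left ?_ (Nat.Coprime.coprime_dvd_right
        (relIndex_dvd_index_normal N B) hcop)
      exact hA'i ▸ relIndex_dvd_index_normal N A'
    obtain ⟨c, hc, hcn⟩ := exists_mul_of_coprime_index _ _ hc ⟨n, hn⟩
    refine ⟨c, ⟨c.2, hc⟩, ?_⟩
    have h3 : ρ ((c : H)⁻¹ * n) (ρ β a) = ρ β a := hcn
    conv_rhs => rw [← h3]
    rw [← rho_mul_apply ρ (c : H), mul_inv_cancel_left]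
  have hb : avg ρ (N ⊓ B) b = b := avg_of_fixed ρ _ hNB fun n hn => hn.2
  have : avg ρ N b = b := key.symm.trans hb
  exact ⟨this, fun n hn => by rw [← this, avg_mem_fixed ρ N hn]⟩

end CfsgLib.NormalComplements.CoprimeOrbits
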